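import Cfsg.Agent.H426.FC.Defs

/-!
# S3618, part B: the alternating group lemmas (helper355)

* `c3 a b c` : the 3-cycle `a → b → c → a`;
* `A3.insert`, `A3.union`, `A3.alternating_le`, `A3_closure`, `exists_support`.
-/

set_option autoImplicit false
set_option linter.unusedSectionVars false
set_option linter.unusedFintypeInType false

open Equiv Equiv.Perm MulAction Cfsg.Agent.H426.FC

namespace Cfsg.Agent.H355.FC

universe v

variable {B : Type v} [Fintype B] [DecidableEq B]

/-- the 3-cycle `a → b → c → a` -/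
def c3 (a b c : B) : Perm B := swap a b * swap b c

theorem c3_conj (g : Perm B) (a b c : B) : g * c3 a b c * g⁻¹ = c3 (g a) (g b) (g c) := by
  unfold c3
  have h1 : g * swap a b = swap (g a) (g b) * g := mul_swap_eq_swap_mul g a b
  have h2 : g * swap b c = swap (g b) (g c) * g := mul_swap_eq_swap_mul g b c
  calc g * (swap a b * swap b c) * g⁻¹ = (g * swap a b) * swap b c * g⁻¹ := by group
    _ = swap (g a) (g b) * (g * swap b c) * g⁻¹ := by rw [h1]; group
    _ = swap (g a) (g b) * swap (g b) (g c) := by rw [h2]; group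

theorem c3_isThreeCycle {a b c : B} (ab : a ≠ b) (ac : a ≠ c) (bc : b ≠ c) : (c3 a b c).IsThreeCycle := by
  unfold c3
  rw [swap_comm a b]
  exact isThreeCycle_swap_mul_swap_same ab.symm bc ac

theorem c3_apply_one {a b c : B} (ab : a ≠ b) (ac : a ≠ c) : c3 a b c a = b := by
  unfold c3
  rw [mul_apply, swap_apply_of_ne_of_ne ab ac, swap_apply_left]

theorem c3_apply_two {a b c : B} (ac : a ≠ c) (bc : b ≠ c) : c3 a b c b = c := by
  unfold c3
  rw [mul_apply, swap_apply_left, swap_apply_of_ne_of_ne ac.symm bc.symm]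

theorem c3_apply_three {a b c : B} : c3 a b c c = a := by
  unfold c3
  rw [mul_apply, swap_apply_right, swap_apply_right]

theorem c3_apply_ne {a b c x : B} (ha : x ≠ a) (hb : x ≠ b) (hc : x ≠ c) : c3 a b c x = x := by
  unfold c3
  rw [mul_apply, swap_apply_of_ne_of_ne hb hc, swap_apply_of_ne_of_ne ha hb]

theorem eq_c3 {σ : Perm B} (h : σ.IsThreeCycle) {a : B} (ha : σ a ≠ a) : σ = c3 a (σ a) (σ (σ a)) :=
  h.eq_swap_mul_swap_iff_mem_support.2 (mem_support.2 ha)

theorem ne_of_isThreeCycle {σ : Perm B} (h : σ.IsThreeCycle) {a : B} (ha : σ a ≠ a) :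
    σ (σ a) ≠ a ∧ σ (σ a) ≠ σ a := by
  have h1 := h.nodup_iff_mem_support.2 (mem_support.2 ha)
  simp only [List.nodup_cons, List.mem_cons, List.not_mem_nil, or_false, not_or] at h1
  exact ⟨fun h2 => h1.1.2 h2.symm, fun h2 => h1.2.1 h2.symm⟩

theorem c3_rot {a b c : B} (ab : a ≠ b) (ac : a ≠ c) (bc : b ≠ c) : c3 a b c = c3 b c a := by
  have h1 := eq_c3 (c3_isThreeCycle ab ac bc) (a := b) (by rw [c3_apply_two ac bc]; exact bc.symm)
  rw [c3_apply_two ac bc, c3_apply_three] at h1
  exact h1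

theorem c3_inv (a b c : B) : (c3 a b c)⁻¹ = c3 c b a := by
  unfold c3
  rw [mul_inv_rev, swap_inv, swap_inv, swap_comm b c, swap_comm a b]

theorem c3_support {a b c : B} (ab : a ≠ b) (ac : a ≠ c) (bc : b ≠ c) : (c3 a b c).support = {a, b, c} := by
  have h1 := (c3_isThreeCycle ab ac bc).support_eq_iff_mem_support.2
    (mem_support.2 (by rw [c3_apply_one ab ac]; exact ab.symm) : a ∈ (c3 a b c).support)
  rw [c3_apply_one ab ac, c3_apply_two ac bc] at h1
  exact h1

theorem A3.c3_mem {W : Subgroup (Perm B)} {S : Finset B} (h : A3 W S) {a b c : B} (ab : a ≠ b) (ac : a ≠ c)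
    (bc : b ≠ c) (ha : a ∈ S) (hb : b ∈ S) (hc : c ∈ S) : c3 a b c ∈ W := by
  refine h _ (c3_isThreeCycle ab ac bc) ?_
  rw [c3_support ab ac bc]
  intro x hx
  simp only [Finset.mem_insert, Finset.mem_singleton] at hx
  rcases hx with rfl | rfl | rfl <;> assumption

/-- symmetry of the pairs -/
theorem c3_symm {W : Subgroup (Perm B)} {u a b : B} (ua : u ≠ a) (ub : u ≠ b) (ab : a ≠ b) (h : c3 u a b ∈ W) :
    c3 u b a ∈ W := by
  have h1 := W.inv_mem h
  rw [c3_inv, c3_rot ab.symm ub.symm ua.symm, c3_rot ua.symm ab ub] at h1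
  exact h1

theorem c3_move {W : Subgroup (Perm B)} {S : Finset B} (hS : A3 W S) {u a b c : B} (hu : u ∉ S) (ha : a ∈ S)
    (hb : b ∈ S) (hc : c ∈ S) (ab : a ≠ b) (ac : a ≠ c) (bc : b ≠ c) (h : c3 u a b ∈ W) : c3 u b c ∈ W := by
  have hg := A3.c3_mem hS ab ac bc ha hb hc
  have h1 := W.mul_mem (W.mul_mem hg h) (W.inv_mem hg)
  rw [c3_conj, c3_apply_one ab ac, c3_apply_two ac bc, c3_apply_ne] at h1
  · exact h1
  · rintro rfl; exact hu ha
  · rintro rfl; exact hu hb
  · rintro rfl; exact hu hc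

/-- `A3` for `insert u S` from one 3-cycle containing `u` and two points of `S` -/
theorem A3.insert_of {W : Subgroup (Perm B)} {S : Finset B} (h : A3 W S) {u o x : B} (hu : u ∉ S) (ho : o ∈ S)
    (hx : x ∈ S) (ox : o ≠ x) (hT : c3 u o x ∈ W) : A3 W (insert u S) := by
  have hne : ∀ a ∈ S, u ≠ a := fun a ha hua => hu (hua ▸ ha)
  have K1 : ∀ c ∈ S, c ≠ x → c3 u x c ∈ W := by
    intro c hc hcx
    by_cases hco : c = o
    · subst hco
      exact c3_symm (hne _ ho) (hne _ hx) ox hT
    · exact c3_move h hu ho hx hc ox (Ne.symm hco) (Ne.symm hcx) hT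
  have K2 : ∀ a ∈ S, ∀ b ∈ S, a ≠ b → c3 u a b ∈ W := by
    intro a ha b hb hab
    by_cases hax : a = x
    · subst hax
      exact K1 b hb (Ne.symm hab)
    · have h1 := K1 a ha hax
      by_cases hbx : b = x
      · subst hbx
        exact c3_symm (hne _ hx) (hne _ ha) (Ne.symm hax) h1
      · exact c3_move h hu hx ha hb (Ne.symm hax) (Ne.symm hbx) hab h1
  intro σ hσ hsupp
  by_cases hus : σ u = u
  · refine h σ hσ fun y hy => ?_
    have h1 := hsupp hy
    rw [Finset.mem_insert] at h1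
    rcases h1 with rfl | h1
    · exact absurd hus (mem_support.1 hy)
    · exact h1
  · obtain ⟨h1, h2⟩ := ne_of_isThreeCycle hσ hus
    have m1 : σ u ∈ σ.support := by rwa [apply_mem_support, mem_support]
    have m2 : σ (σ u) ∈ σ.support := by rwa [apply_mem_support]
    rw [eq_c3 hσ hus]
    refine K2 _ ?_ _ ?_ (Ne.symm h2)
    · exact (Finset.mem_insert.1 (hsupp m1)).resolve_left hus
    · exact (Finset.mem_insert.1 (hsupp m2)).resolve_left h1

/-- ALT1: adding one point (three points are enough) -/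
theorem A3.insert' {W : Subgroup (Perm B)} {S : Finset B} (h : A3 W S) (h3 : 3 ≤ S.card) {τ : Perm B}
    (hτ : τ.IsThreeCycle) (hτW : τ ∈ W) (o u : B) (ho : o ∈ S) (hτo : τ o = u) (hu : u ∉ S) : A3 W (insert u S) := by
  have hou : o ≠ u := fun h1 => hu (h1 ▸ ho)
  have hτo' : τ o ≠ o := by rw [hτo]; exact hou.symm
  obtain ⟨h1, h2⟩ := ne_of_isThreeCycle hτ hτo'
  have h0 := eq_c3 hτ hτo'
  rw [hτo] at h0 h1 h2
  set v := τ u with hv
  by_cases hvS : v ∈ S
  · -- `c3 o u v = c3 u v o`
    refine A3.insert_of h hu hvS ho h1 ?_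
    rw [← c3_rot hou h1.symm h2.symm, ← h0]
    exact hτW
  · obtain ⟨x, hx, hxo⟩ : ∃ x ∈ S, x ≠ o := Finset.exists_mem_ne (by omega) o
    obtain ⟨y, hy, hyn⟩ : ∃ y ∈ S, y ∉ ({o, x} : Finset B) := by
      by_contra hcon
      push Not at hcon
      have h5 : S ⊆ {o, x} := hcon
      have h6 := Finset.card_le_card h5
      have h7 : ({o, x} : Finset B).card ≤ 2 := Finset.card_le_two
      omega
    simp only [Finset.mem_insert, Finset.mem_singleton, not_or] at hyn
    have hne : ∀ a ∈ S, u ≠ a := fun a ha hua => hu (hua ▸ ha)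
    have hne' : ∀ a ∈ S, v ≠ a := fun a ha hua => hvS (hua ▸ ha)
    have hg := A3.c3_mem h hxo.symm (Ne.symm hyn.1) (Ne.symm hyn.2) ho hx hy
    have h8 := W.mul_mem (W.mul_mem (W.mul_mem hg hτW) (W.inv_mem hg)) (W.inv_mem hτW)
    rw [h0, c3_conj, c3_apply_one hxo.symm (Ne.symm hyn.1), c3_apply_ne (hne o ho) (hne x hx) (hne y hy),
      c3_apply_ne (hne' o ho) (hne' x hx) (hne' y hy), c3_inv] at h8
    have h9 : c3 x u v * c3 v u o = c3 x u o := by
      unfold c3
      rw [swap_comm u v, mul_assoc, swap_mul_self_mul]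
    rw [h9, c3_rot (hne x hx).symm hxo (hne o ho)] at h8
    exact A3.insert_of h hu ho hx hxo.symm h8

/-- ALT1: adding one point -/
theorem A3.insert {W : Subgroup (Perm B)} {S : Finset B} (h : A3 W S) (h4 : 4 ≤ S.card) {τ : Perm B}
    (hτ : τ.IsThreeCycle) (hτW : τ ∈ W) (o u : B) (ho : o ∈ S) (hτo : τ o = u) (hu : u ∉ S) : A3 W (insert u S) :=
  A3.insert' h (by omega) hτ hτW o u ho hτo hu

/-- ALT2: overlapping sets -/
theorem A3.union {W : Subgroup (Perm B)} {S S' : Finset B} (h : A3 W S) (h' : A3 W S') (h3 : 3 ≤ S.card)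
    (h3' : 3 ≤ S'.card) (ho : (S ∩ S').Nonempty) : A3 W (S ∪ S') := by
  classical
  obtain ⟨o, ho⟩ := ho
  rw [Finset.mem_inter] at ho
  -- a maximal set
  have key : ∀ k : ℕ, ∀ R : Finset B, S ⊆ R → R ⊆ S ∪ S' → A3 W R → (S ∪ S').card = R.card + k → A3 W (S ∪ S') := by
    intro k
    induction k with
    | zero =>
      intro R _ hR hA hc
      rwa [← Finset.eq_of_subset_of_card_le hR (by omega)]
    | succ k ih =>
      intro R hSR hR hA hc
      have h1 : ¬ (S ∪ S') ⊆ R := fun h2 => by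
        have := Finset.card_le_card h2
        omega
      rw [Finset.not_subset] at h1
      obtain ⟨u, hu, huR⟩ := h1
      have huS' : u ∈ S' := by
        rw [Finset.mem_union] at hu
        exact hu.resolve_left fun h2 => huR (hSR h2)
      have hou : o ≠ u := fun h2 => huR (h2 ▸ hSR ho.1)
      obtain ⟨v, hv, hvn⟩ : ∃ v ∈ S', v ∉ ({o, u} : Finset B) := by
        by_contra hcon
        push Not at hcon
        have h5 : S' ⊆ {o, u} := hcon
        have h6 := Finset.card_le_card h5
        have h7 : ({o, u} : Finset B).card ≤ 2 := Finset.card_le_two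
        omega
      simp only [Finset.mem_insert, Finset.mem_singleton, not_or] at hvn
      have hτ := c3_isThreeCycle hou (Ne.symm hvn.1) (Ne.symm hvn.2)
      have hτW := A3.c3_mem h' hou (Ne.symm hvn.1) (Ne.symm hvn.2) ho.2 huS' hv
      refine ih (Insert.insert u R) (hSR.trans (Finset.subset_insert _ _)) ?_ ?_ ?_
      · exact Finset.insert_subset hu hR
      · exact A3.insert' hA (h3.trans (Finset.card_le_card hSR)) hτ hτW o u (hSR ho.1)
          (c3_apply_one hou (Ne.symm hvn.1)) huR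
      · rw [Finset.card_insert_of_notMem huR]
        omega
  obtain ⟨k, hk⟩ : ∃ k, (S ∪ S').card = S.card + k :=
    ⟨_, (Nat.add_sub_cancel' (Finset.card_le_card Finset.subset_union_left)).symm⟩
  exact key k S (Finset.Subset.refl _) Finset.subset_union_left h hk

/-- ALT3: `Alt` from all 3-cycles -/
theorem A3.alternating_le {W : Subgroup (Perm B)} (h : A3 W Finset.univ) : alternatingGroup B ≤ W := by
  rw [← closure_three_cycles_eq_alternating, Subgroup.closure_le]
  intro σ hσ
  exact h σ hσ (Finset.subset_univ _)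

/-- ALT5: homogeneity -/
theorem exists_support {d : ℕ} (XB : Set (Perm B)) (hne : XB.Nonempty)
    (hconj : ∀ τ ∈ alternatingGroup B, ∀ x ∈ XB, τ * x * τ⁻¹ ∈ XB) (hcard : ∀ x ∈ XB, x.support.card = d)
    (h2 : d + 2 ≤ Fintype.card B) (D : Finset B) (hD : D.card = d) : ∃ x ∈ XB, x.support = D := by
  classical
  obtain ⟨x₀, hx₀⟩ := hne
  have hc : x₀.support.card = D.card := by rw [hcard x₀ hx₀, hD]
  let e : {x // x ∈ x₀.support} ≃ {x // x ∈ D} := Finset.equivOfCardEq hc
  let τ : Perm B := e.extendSubtype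
  have hτ : ∀ x ∈ x₀.support, τ x ∈ D := fun x hx => e.extendSubtype_mem x hx
  -- two points outside `D`
  obtain ⟨a, ha, b, hb, hab⟩ : ∃ a ∈ Dᶜ, ∃ b ∈ Dᶜ, a ≠ b := by
    have h3 : 1 < (Dᶜ : Finset B).card := by
      rw [Finset.card_compl, hD]
      omega
    exact Finset.one_lt_card.1 h3
  rw [Finset.mem_compl] at ha hb
  obtain ⟨τ', hτ', hτD⟩ : ∃ τ' ∈ alternatingGroup B, ∀ x ∈ x₀.support, τ' x ∈ D := by
    rcases Int.units_eq_one_or (sign τ) with hs | hs
    · exact ⟨τ, mem_alternatingGroup.2 hs, hτ⟩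
    · refine ⟨swap a b * τ, ?_, fun x hx => ?_⟩
      · rw [mem_alternatingGroup, Equiv.Perm.sign_mul, sign_swap hab, hs]
        rfl
      · have h4 := hτ x hx
        rw [mul_apply, swap_apply_of_ne_of_ne]
        · exact h4
        · rintro h5; exact ha (h5 ▸ h4)
        · rintro h5; exact hb (h5 ▸ h4)
  refine ⟨τ' * x₀ * τ'⁻¹, hconj τ' hτ' x₀ hx₀, ?_⟩
  rw [support_conj]
  refine Finset.eq_of_subset_of_card_le ?_ ?_
  · intro y hy
    rw [Finset.mem_map] at hy
    obtain ⟨x, hx, rfl⟩ := hy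
    exact hτD x hx
  · rw [Finset.card_map, hc]

/-- two 3-cycles with the same support generate the same group -/
theorem eq_or_eq_inv {σ x : Perm B} (hσ : σ.IsThreeCycle) (hx : x.IsThreeCycle) (h : σ.support = x.support) :
    σ = x ∨ σ = x⁻¹ := by
  obtain ⟨a, ha⟩ : σ.support.Nonempty := by
    rw [← Finset.card_pos, hσ.card_support]
    norm_num
  have haσ : σ a ≠ a := mem_support.1 ha
  have hax : x a ≠ a := mem_support.1 (h ▸ ha)
  obtain ⟨s1, s2⟩ := ne_of_isThreeCycle hσ haσ
  obtain ⟨x1, x2⟩ := ne_of_isThreeCycle hx hax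
  have hσs : σ.support = {a, σ a, σ (σ a)} := hσ.support_eq_iff_mem_support.2 ha
  have hxs : x.support = {a, x a, x (x a)} := hx.support_eq_iff_mem_support.2 (h ▸ ha)
  have m1 : σ a ∈ x.support := by rw [← h, apply_mem_support]; exact ha
  have m2 : σ (σ a) ∈ x.support := by rw [← h, apply_mem_support, apply_mem_support]; exact ha
  rw [hxs] at m1 m2
  simp only [Finset.mem_insert, Finset.mem_singleton] at m1 m2
  have e1 := eq_c3 hσ haσ
  have e2 := eq_c3 hx hax
  rcases m1 with m1 | m1 | m1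
  · exact absurd m1 haσ
  · left
    rcases m2 with m2 | m2 | m2
    · exact absurd m2 s1
    · exact absurd (m2.trans m1.symm) s2
    · rw [e1, e2, m2, m1]
  · right
    rcases m2 with m2 | m2 | m2
    · exact absurd m2 s1
    · have e3 : x⁻¹ = c3 a (x (x a)) (x a) := by
        have e4 : x⁻¹ = (c3 a (x a) (x (x a)))⁻¹ := congrArg (·⁻¹) e2
        rw [e4, c3_inv, ← c3_rot x1.symm hax.symm x2]
      rw [e3, e1, m2, m1]
    · exact absurd (m2.trans m1.symm) s2

/-- `A3 W S` from the even permutations of `S` -/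
theorem A3.of_alternating {W : Subgroup (Perm B)} {S : Finset B}
    (h : ∀ σ : Perm {x // x ∈ S}, σ ∈ alternatingGroup {x // x ∈ S} → ofSubtype σ ∈ W) : A3 W S := by
  intro σ hσ hs
  have h1 : ∀ x, σ x ∈ S ↔ x ∈ S := by
    intro x
    by_cases hx : σ x = x
    · rw [hx]
    · have h2 : x ∈ σ.support := mem_support.2 hx
      exact ⟨fun _ => hs h2, fun _ => hs (apply_mem_support.2 h2)⟩
  have h2 : ofSubtype (subtypePerm σ h1) = σ := ofSubtype_subtypePerm h1 fun x hx => hs (mem_support.2 hx)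
  rw [← h2]
  refine h _ ?_
  rw [mem_alternatingGroup, ← sign_ofSubtype, h2]
  exact hσ.sign

/-- ALT4 -/
theorem A3_closure {p d : ℕ} [Fact p.Prime] (hp : p ≠ 2) (XB : Set (Perm B)) (hne : XB.Nonempty)
    (hconj : ∀ τ ∈ alternatingGroup B, ∀ x ∈ XB, τ * x * τ⁻¹ ∈ XB) (hcard : ∀ x ∈ XB, x.support.card = d)
    (hord : ∀ x ∈ XB, orderOf x = p) (h2 : 2 * d ≤ Fintype.card B) (S : Finset B) (hS : d ≤ S.card) :
    A3 (Subgroup.closure {x ∈ XB | x.support ⊆ S}) S := by
  classical
  have hpp : p.Prime := Fact.out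
  have hpodd : Odd p := hpp.odd_of_ne_two hp
  -- `p ∣ d`, `3 ≤ d`
  obtain ⟨x₀, hx₀⟩ := hne
  have hpd : p ∣ d := by
    rw [← hcard x₀ hx₀, ← sum_cycleType]
    refine Multiset.dvd_sum fun n hn => ?_
    have h3 : n ∣ orderOf x₀ := by
      rw [← lcm_cycleType]
      exact Multiset.dvd_lcm hn
    rw [hord x₀ hx₀] at h3
    rcases (Nat.dvd_prime hpp).1 h3 with h4 | h4
    · have := two_le_of_mem_cycleType hn
      omega
    · rw [h4]
  have hd0 : 0 < d := by
    rw [← hcard x₀ hx₀, Finset.card_pos]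
    rw [Finset.nonempty_iff_ne_empty]
    intro h3
    have h4 := support_eq_empty_iff.1 h3
    have h5 := hord x₀ hx₀
    rw [h4, orderOf_one] at h5
    exact hpp.one_lt.ne h5
  have hp3 : 3 ≤ p := by
    have := hpp.two_le
    omega
  have hd3 : 3 ≤ d := hp3.trans (Nat.le_of_dvd hd0 hpd)
  have hhom : ∀ D : Finset B, D.card = d → ∃ x ∈ XB, x.support = D := fun D hD =>
    exists_support XB ⟨x₀, hx₀⟩ hconj hcard (by omega) D hD
  rcases Nat.lt_or_ge d 5 with hd5 | hd5
  · -- `d = 3`
    have hd : d = 3 := by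
      have h3 : d = 3 ∨ d = 4 := by omega
      rcases h3 with h3 | h3
      · exact h3
      · exfalso
        rw [h3] at hpd
        have h4 : p ∣ 2 ^ 2 := hpd
        have h5 := (Nat.prime_dvd_prime_iff_eq hpp Nat.prime_two).1 (hpp.dvd_of_dvd_pow h4)
        exact hp h5
    intro σ hσ hs
    obtain ⟨x, hx, hxs⟩ := hhom σ.support (by rw [hσ.card_support, hd])
    have hx3 : x.IsThreeCycle := card_support_eq_three_iff.1 (by rw [hxs, hσ.card_support])
    have hxW : x ∈ Subgroup.closure {x ∈ XB | x.support ⊆ S} :=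
      Subgroup.subset_closure ⟨hx, by rw [hxs]; exact hs⟩
    rcases eq_or_eq_inv hσ hx3 hxs.symm with h3 | h3
    · rw [h3]; exact hxW
    · rw [h3]; exact inv_mem hxW
  · -- `d ≥ 5`
    set W := Subgroup.closure {x ∈ XB | x.support ⊆ S} with hW
    have hS5 : 5 ≤ Nat.card {x // x ∈ S} := by
      rw [Nat.card_eq_fintype_card, Fintype.card_coe]
      omega
    -- conjugation with even permutations of `S`
    have hconjW : ∀ g : Perm {x // x ∈ S}, g ∈ alternatingGroup {x // x ∈ S} → ∀ w ∈ W,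
        ofSubtype g * w * (ofSubtype g)⁻¹ ∈ W := by
      intro g hg w hw
      have hgB : ofSubtype g ∈ alternatingGroup B := by
        rw [mem_alternatingGroup, sign_ofSubtype]
        exact hg
      have hgS : ∀ x ∈ S, ofSubtype g x ∈ S := by
        intro x hx
        rw [ofSubtype_apply_of_mem g hx]
        exact (g ⟨x, hx⟩).2
      induction hw using Subgroup.closure_induction with
      | mem x hx =>
        refine Subgroup.subset_closure ⟨hconj _ hgB x hx.1, ?_⟩
        rw [support_conj]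
        intro y hy
        rw [Finset.mem_map] at hy
        obtain ⟨z, hz, rfl⟩ := hy
        exact hgS z (hx.2 hz)
      | one => simp
      | mul x y _ _ hx hy =>
        have : ofSubtype g * (x * y) * (ofSubtype g)⁻¹ =
            (ofSubtype g * x * (ofSubtype g)⁻¹) * (ofSubtype g * y * (ofSubtype g)⁻¹) := by group
        rw [this]; exact mul_mem hx hy
      | inv x _ hx =>
        have : ofSubtype g * x⁻¹ * (ofSubtype g)⁻¹ = (ofSubtype g * x * (ofSubtype g)⁻¹)⁻¹ := by group
        rw [this]; exact inv_mem hx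
    let N : Subgroup (alternatingGroup {x // x ∈ S}) :=
      W.comap ((ofSubtype : Perm {x // x ∈ S} →* Perm B).comp (alternatingGroup {x // x ∈ S}).subtype)
    have hN : N.Normal := by
      constructor
      intro n hn g
      change ofSubtype ((g * n * g⁻¹ : alternatingGroup {x // x ∈ S}) : Perm {x // x ∈ S}) ∈ W
      rw [Subgroup.coe_mul, Subgroup.coe_mul, Subgroup.coe_inv, map_mul, map_mul, map_inv]
      exact hconjW g g.2 _ hn
    have hNtop : N = ⊤ := by
      rcases alternatingGroup.normal_subgroup_eq_bot_or_eq_top hS5 (N := N) with h3 | h3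
      · exfalso
        obtain ⟨D, hDS, hD⟩ := Finset.exists_subset_card_eq hS
        obtain ⟨x, hx, hxs⟩ := hhom D hD
        have h1 : ∀ y, x y ∈ S ↔ y ∈ S := by
          intro y
          by_cases hy : x y = y
          · rw [hy]
          · have h2 : y ∈ x.support := mem_support.2 hy
            exact ⟨fun _ => hDS (hxs ▸ h2), fun _ => hDS (hxs ▸ apply_mem_support.2 h2)⟩
        have h4 : ofSubtype (subtypePerm x h1) = x := ofSubtype_subtypePerm h1 fun y hy => hDS (hxs ▸ mem_support.2 hy)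
        have hsx : sign x = 1 := by
          rcases Int.units_eq_one_or (sign x) with h5 | h5
          · exact h5
          · exfalso
            have h6 : sign (x ^ p) = 1 := by rw [← hord x hx, pow_orderOf_eq_one, Equiv.Perm.sign_one]
            rw [map_pow, h5, hpodd.neg_one_pow] at h6
            exact absurd h6 (by decide)
        have h5 : (⟨subtypePerm x h1, by rw [mem_alternatingGroup, ← sign_ofSubtype, h4]; exact hsx⟩ :
            alternatingGroup {x // x ∈ S}) ∈ N := by
          change ofSubtype (subtypePerm x h1) ∈ W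
          rw [h4]
          exact Subgroup.subset_closure ⟨hx, by rw [hxs]; exact hDS⟩
        rw [h3, Subgroup.mem_bot] at h5
        have h6 : subtypePerm x h1 = 1 := congrArg Subtype.val h5
        rw [h6, map_one] at h4
        have h7 := hord x hx
        rw [← h4, orderOf_one] at h7
        exact hpp.one_lt.ne h7
      · exact h3
    refine A3.of_alternating fun σ hσ => ?_
    have h3 : (⟨σ, hσ⟩ : alternatingGroup {x // x ∈ S}) ∈ N := by
      rw [hNtop]
      trivial
    exact h3

end Cfsg.Agent.H355.FC
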